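import Mathlib
import Cfsg.Agent.Lib.Helper65.S4415.ExtDefs

/-!
# S4415, package [EXT], sub-package [X-R1]

Every element of `R` acts on the quaternion model as `h ↦ α h γ` with units `α, γ`.

Route: `U := {g | g acts as h ↦ α h γ, units}` is a subgroup containing `b`; every `g` either lies
in `U` or acts as `h ↦ α (star h) γ` ("anti-type"); anti-type times anti-type is in `U`; hence all
commutators `r c r⁻¹ c⁻¹` (`c ∈ ⟨b⟩`) lie in `U`, and `R = ⁅R, ⟨b⟩⁆ ≤ U`.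
-/

set_option autoImplicit false

namespace Cfsg.Agent.Lib.Helper64.S4415

open Cfsg.Agent.Lib.Helper78.S4415 Cfsg.Agent.Lib.Helper65.S4415

universe u v

/-! ### facts in `H` -/

theorem xr1_q8_neg {p : H} (h : Q8 p) : Q8 (-p) := by
  unfold Q8 at h ⊢
  rcases h with rfl | rfl | rfl | rfl | rfl | rfl | rfl | rfl <;> simp

theorem xr1_q8_star {p : H} (h : Q8 p) : Q8 (star p) := by
  have h1 : star qi = -qi := by ext <;> rfl
  have h2 : star qj = -qj := by ext <;> rfl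
  have h3 : star qk = -qk := by ext <;> rfl
  unfold Q8 at h ⊢
  rcases h with rfl | rfl | rfl | rfl | rfl | rfl | rfl | rfl <;> simp [h1, h2, h3]

theorem xr1_q8_normSq {p : H} (h : Q8 p) : Quaternion.normSq p = 1 := by
  unfold Q8 at h
  rcases h with rfl | rfl | rfl | rfl | rfl | rfl | rfl | rfl <;>
    (rw [Quaternion.normSq_def']; rfl)

theorem xr1_q8_sq {p : H} (h : Q8 p) : (p = 1 ∨ p = -1) ∨ p * p = -1 := by
  unfold Q8 at h
  rcases h with rfl | rfl | rfl | rfl | rfl | rfl | rfl | rfl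
  · exact Or.inl (Or.inl rfl)
  · exact Or.inl (Or.inr rfl)
  all_goals (right; ext <;> rfl)

theorem xr1_one_ne_neg_one : (1 : H) ≠ -1 := by
  intro h
  have h1 := congrArg QuaternionAlgebra.re h
  rw [Quaternion.re_neg, Quaternion.re_one] at h1
  revert h1; decide

theorem xr1_eq_zero_of_eq_neg {a : H} (h : a = -a) : a = 0 := by
  have key : ∀ c : ZMod 3, c = -c → c = 0 := by decide
  ext
  · exact key _ (by have h1 := congrArg QuaternionAlgebra.re h; rwa [Quaternion.re_neg] at h1)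
  · exact key _ (by have h1 := congrArg QuaternionAlgebra.imI h; rwa [Quaternion.imI_neg] at h1)
  · exact key _ (by have h1 := congrArg QuaternionAlgebra.imJ h; rwa [Quaternion.imJ_neg] at h1)
  · exact key _ (by have h1 := congrArg QuaternionAlgebra.imK h; rwa [Quaternion.imK_neg] at h1)

/-- quaternion conjugation as a linear map -/
def xr1Star : H →ₗ[ZMod 3] H where
  toFun h := star h
  map_add' := fun a b => star_add a b
  map_smul' := fun c a => by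
    simp only [RingHom.id_apply]
    exact Quaternion.star_smul c a

theorem xr1Star_apply (h : H) : xr1Star h = star h := rfl

/-! ### representations -/

section rep

variable {G : Type u} [Group G] {V : Type v} [AddCommGroup V] [Module (ZMod 3) V]

theorem xr1_rho_mul (ρ : Representation (ZMod 3) G V) (g h : G) (v : V) :
    ρ (g * h) v = ρ g (ρ h v) := by
  rw [map_mul]; rfl

theorem xr1_rho_inv_cancel (ρ : Representation (ZMod 3) G V) (g : G) (v : V) :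
    ρ g (ρ g⁻¹ v) = v := by
  rw [← xr1_rho_mul, mul_inv_cancel, map_one]; rfl

theorem xr1_rho_inv_cancel' (ρ : Representation (ZMod 3) G V) (g : G) (v : V) :
    ρ g⁻¹ (ρ g v) = v := by
  rw [← xr1_rho_mul, inv_mul_cancel, map_one]; rfl

theorem xr1_swap {z a c : G} (hzz : z * z = 1) (hca : c * a = z * a * c) :
    a * c = z * c * a := by
  rw [mul_assoc z, hca, ← mul_assoc, ← mul_assoc, hzz, one_mul]

/-- the elements acting as `h ↦ α h γ` with units `α, γ` -/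
def xr1U (hF : FinFacts) (ρ : Representation (ZMod 3) G V) (φ : V ≃ₗ[ZMod 3] H) : Subgroup G where
  carrier := {g | ∃ α γ : H, Quaternion.normSq α ≠ 0 ∧ Quaternion.normSq γ ≠ 0 ∧ LR ρ φ g α γ}
  mul_mem' := by
    rintro g g' ⟨α, γ, hα, hγ, h⟩ ⟨α', γ', hα', hγ', h'⟩
    refine ⟨α * α', γ' * γ, ?_, ?_, ?_⟩
    · rw [map_mul]; exact mul_ne_zero hα hα'
    · rw [map_mul]; exact mul_ne_zero hγ' hγ
    · intro w
      rw [xr1_rho_mul, h, h']
      simp only [mul_assoc]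
  one_mem' := by
    refine ⟨1, 1, ?_, ?_, ?_⟩
    · rw [map_one]; exact one_ne_zero
    · rw [map_one]; exact one_ne_zero
    · intro w
      rw [map_one, one_mul, mul_one]; rfl
  inv_mem' := by
    rintro g ⟨α, γ, hα, hγ, h⟩
    obtain ⟨α', hα1, hα2⟩ := hF.unit α hα
    obtain ⟨γ', hγ1, hγ2⟩ := hF.unit γ hγ
    refine ⟨α', γ', ?_, ?_, ?_⟩
    · intro h0
      have h1 := congrArg Quaternion.normSq hα1
      rw [map_mul, h0, mul_zero, map_one] at h1
      exact zero_ne_one h1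
    · intro h0
      have h1 := congrArg Quaternion.normSq hγ1
      rw [map_mul, h0, mul_zero, map_one] at h1
      exact zero_ne_one h1
    · intro w
      have h1 := h (ρ g⁻¹ w)
      rw [xr1_rho_inv_cancel] at h1
      rw [h1]
      calc φ (ρ g⁻¹ w) = (α' * α) * φ (ρ g⁻¹ w) * (γ * γ') := by
            rw [hα2, hγ1, one_mul, mul_one]
        _ = α' * (α * φ (ρ g⁻¹ w) * γ) * γ' := by simp only [mul_assoc]

theorem mem_xr1U (hF : FinFacts) (ρ : Representation (ZMod 3) G V) (φ : V ≃ₗ[ZMod 3] H) (g : G) :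
    g ∈ xr1U hF ρ φ ↔
      ∃ α γ : H, Quaternion.normSq α ≠ 0 ∧ Quaternion.normSq γ ≠ 0 ∧ LR ρ φ g α γ := Iff.rfl

/-- the elements acting as `h ↦ α (star h) γ` with units `α, γ` -/
def XAnti (ρ : Representation (ZMod 3) G V) (φ : V ≃ₗ[ZMod 3] H) (g : G) : Prop :=
  ∃ α γ : H, Quaternion.normSq α ≠ 0 ∧ Quaternion.normSq γ ≠ 0 ∧
    ∀ w : V, φ (ρ g w) = α * star (φ w) * γ

theorem xr1_anti_mul_u (hF : FinFacts) {ρ : Representation (ZMod 3) G V} {φ : V ≃ₗ[ZMod 3] H}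
    {g c : G} (hg : XAnti ρ φ g) (hc : c ∈ xr1U hF ρ φ) : XAnti ρ φ (g * c) := by
  obtain ⟨α, γ, hα, hγ, h⟩ := hg
  obtain ⟨β, β', hβ, hβ', h'⟩ := (mem_xr1U hF ρ φ c).1 hc
  refine ⟨α * star β', star β * γ, ?_, ?_, ?_⟩
  · rw [map_mul, Quaternion.normSq_star]; exact mul_ne_zero hα hβ'
  · rw [map_mul, Quaternion.normSq_star]; exact mul_ne_zero hβ hγ
  · intro w
    rw [xr1_rho_mul, h, h' w, star_mul, star_mul]
    simp only [mul_assoc]

theorem xr1_anti_mul_anti (hF : FinFacts) {ρ : Representation (ZMod 3) G V}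
    {φ : V ≃ₗ[ZMod 3] H} {g g' : G} (hg : XAnti ρ φ g) (hg' : XAnti ρ φ g') :
    g * g' ∈ xr1U hF ρ φ := by
  obtain ⟨α, γ, hα, hγ, h⟩ := hg
  obtain ⟨α', γ', hα', hγ', h'⟩ := hg'
  refine (mem_xr1U hF ρ φ _).2 ⟨α * star γ', star α' * γ, ?_, ?_, ?_⟩
  · rw [map_mul, Quaternion.normSq_star]; exact mul_ne_zero hα hγ'
  · rw [map_mul, Quaternion.normSq_star]; exact mul_ne_zero hα' hγ
  · intro w
    rw [xr1_rho_mul, h, h' w, star_mul, star_mul, star_star]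
    simp only [mul_assoc]

/-- an element of `N` of square `z` is a left or a right multiplication by an element of `Q8` -/
theorem xr1_typ (ρ : Representation (ZMod 3) G V) (φ : V ≃ₗ[ZMod 3] H) {N : Subgroup G} {z : G}
    (hz : ∀ w : V, ρ z w = -w) (hQ : QFacts ρ φ N) {n : G} (hn : n ∈ N) (hnn : n * n = z) :
    (∃ p : H, Q8 p ∧ ∀ w, φ (ρ n w) = p * φ w) ∨ (∃ γ : H, Q8 γ ∧ ∀ w, φ (ρ n w) = φ w * γ) := by
  obtain ⟨p, γ, hp, hγ, h⟩ := hQ n hn
  rcases xr1_q8_sq hp with (rfl | rfl) | hp2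
  · right
    exact ⟨γ, hγ, fun w => by rw [h w, one_mul]⟩
  · right
    exact ⟨-γ, xr1_q8_neg hγ, fun w => by rw [h w]; simp⟩
  · rcases xr1_q8_sq hγ with (rfl | rfl) | hγ2
    · left
      exact ⟨p, hp, fun w => by rw [h w, mul_one]⟩
    · left
      exact ⟨-p, xr1_q8_neg hp, fun w => by rw [h w]; simp⟩
    · exfalso
      have h1 := h (ρ n (φ.symm 1))
      rw [← xr1_rho_mul, hnn, hz, map_neg, h (φ.symm 1), φ.apply_symm_apply] at h1
      have h2 : p * (p * 1 * γ) * γ = (p * p) * (γ * γ) := by simp only [mul_one, mul_assoc]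
      rw [h2, hp2, hγ2, neg_mul_neg, one_mul] at h1
      exact xr1_one_ne_neg_one h1.symm

/-- a left and a right multiplication cannot anticommute -/
theorem xr1_anti (ρ : Representation (ZMod 3) G V) (φ : V ≃ₗ[ZMod 3] H) {z : G}
    (hz : ∀ w : V, ρ z w = -w) {n m : G} (hmn : m * n = z * n * m) {p γ : H} (hp : Q8 p)
    (hγ : Q8 γ) (hn : ∀ w, φ (ρ n w) = p * φ w) (hm : ∀ w, φ (ρ m w) = φ w * γ) : False := by
  have h1 : φ (ρ (m * n) (φ.symm 1)) = p * γ := by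
    rw [xr1_rho_mul, hm, hn, φ.apply_symm_apply, mul_one]
  have h2 : φ (ρ (z * n * m) (φ.symm 1)) = -(p * γ) := by
    rw [xr1_rho_mul, xr1_rho_mul, hz, map_neg, hn, hm, φ.apply_symm_apply, one_mul]
  rw [hmn, h2] at h1
  have h3 : p * γ = 0 := xr1_eq_zero_of_eq_neg h1.symm
  have h4 := congrArg Quaternion.normSq h3
  rw [map_mul, xr1_q8_normSq hp, xr1_q8_normSq hγ, map_zero, mul_one] at h4
  exact one_ne_zero h4

/-- wrapper for `PkgXNorm`, left type -/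
theorem xr1_L (hNorm : PkgXNorm) (ρ : Representation (ZMod 3) G V) (φ : V ≃ₗ[ZMod 3] H)
    {g x y : G} (mx : ∀ w : V, φ (ρ x w) = qi * φ w) (my : ∀ w : V, φ (ρ y w) = qj * φ w)
    {p p' : H} (hp : Q8 p) (hp' : Q8 p') (hu : ∀ w, φ (ρ (g * x * g⁻¹) w) = p * φ w)
    (hw : ∀ w, φ (ρ (g * y * g⁻¹) w) = p' * φ w) :
    ∃ α γ : H, Quaternion.normSq α ≠ 0 ∧ Quaternion.normSq γ ≠ 0 ∧ LR ρ φ g α γ := by
  have hx : ∀ h : H, φ.symm (qi * h) = ρ x (φ.symm h) := by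
    intro h
    apply φ.injective
    rw [φ.apply_symm_apply, mx, φ.apply_symm_apply]
  have hy : ∀ h : H, φ.symm (qj * h) = ρ y (φ.symm h) := by
    intro h
    apply φ.injective
    rw [φ.apply_symm_apply, my, φ.apply_symm_apply]
  have hgx : ∀ w, ρ g (ρ x w) = ρ (g * x * g⁻¹) (ρ g w) := by
    intro w
    rw [← xr1_rho_mul, ← xr1_rho_mul, inv_mul_cancel_right]
  have hgy : ∀ w, ρ g (ρ y w) = ρ (g * y * g⁻¹) (ρ g w) := by
    intro w
    rw [← xr1_rho_mul, ← xr1_rho_mul, inv_mul_cancel_right]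
  obtain ⟨α, γ, hα, hγ, hT⟩ := hNorm
    ((φ : V →ₗ[ZMod 3] H) ∘ₗ (ρ g) ∘ₗ (φ.symm : H →ₗ[ZMod 3] V))
    ((φ : V →ₗ[ZMod 3] H) ∘ₗ (ρ g⁻¹) ∘ₗ (φ.symm : H →ₗ[ZMod 3] V)) p p'
    (by intro h
        show φ (ρ g (φ.symm (φ (ρ g⁻¹ (φ.symm h))))) = h
        rw [φ.symm_apply_apply, xr1_rho_inv_cancel, φ.apply_symm_apply])
    (by intro h
        show φ (ρ g⁻¹ (φ.symm (φ (ρ g (φ.symm h))))) = h
        rw [φ.symm_apply_apply, xr1_rho_inv_cancel', φ.apply_symm_apply])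
    hp hp'
    (by intro h
        show φ (ρ g (φ.symm (qi * h))) = p * φ (ρ g (φ.symm h))
        rw [hx, hgx, hu])
    (by intro h
        show φ (ρ g (φ.symm (qj * h))) = p' * φ (ρ g (φ.symm h))
        rw [hy, hgy, hw])
  refine ⟨α, γ, hα, hγ, fun w => ?_⟩
  have h1 := hT (φ w)
  have h2 : ((φ : V →ₗ[ZMod 3] H) ∘ₗ (ρ g) ∘ₗ (φ.symm : H →ₗ[ZMod 3] V)) (φ w) =
      φ (ρ g (φ.symm (φ w))) := rfl
  rw [h2, φ.symm_apply_apply] at h1
  exact h1

/-- wrapper for `PkgXNorm`, right type -/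
theorem xr1_R (hNorm : PkgXNorm) (ρ : Representation (ZMod 3) G V) (φ : V ≃ₗ[ZMod 3] H)
    {g x y : G} (mx : ∀ w : V, φ (ρ x w) = qi * φ w) (my : ∀ w : V, φ (ρ y w) = qj * φ w)
    {γ γ' : H} (hγ : Q8 γ) (hγ' : Q8 γ') (hu : ∀ w, φ (ρ (g * x * g⁻¹) w) = φ w * γ)
    (hw : ∀ w, φ (ρ (g * y * g⁻¹) w) = φ w * γ') : XAnti ρ φ g := by
  have hx : ∀ h : H, φ.symm (qi * h) = ρ x (φ.symm h) := by
    intro h
    apply φ.injective
    rw [φ.apply_symm_apply, mx, φ.apply_symm_apply]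
  have hy : ∀ h : H, φ.symm (qj * h) = ρ y (φ.symm h) := by
    intro h
    apply φ.injective
    rw [φ.apply_symm_apply, my, φ.apply_symm_apply]
  have hgx : ∀ w, ρ g (ρ x w) = ρ (g * x * g⁻¹) (ρ g w) := by
    intro w
    rw [← xr1_rho_mul, ← xr1_rho_mul, inv_mul_cancel_right]
  have hgy : ∀ w, ρ g (ρ y w) = ρ (g * y * g⁻¹) (ρ g w) := by
    intro w
    rw [← xr1_rho_mul, ← xr1_rho_mul, inv_mul_cancel_right]
  obtain ⟨α, δ, hα, hδ, hT⟩ := hNorm
    (xr1Star ∘ₗ (φ : V →ₗ[ZMod 3] H) ∘ₗ (ρ g) ∘ₗ (φ.symm : H →ₗ[ZMod 3] V))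
    ((φ : V →ₗ[ZMod 3] H) ∘ₗ (ρ g⁻¹) ∘ₗ (φ.symm : H →ₗ[ZMod 3] V) ∘ₗ xr1Star) (star γ) (star γ')
    (by intro h
        show star (φ (ρ g (φ.symm (φ (ρ g⁻¹ (φ.symm (star h))))))) = h
        rw [φ.symm_apply_apply, xr1_rho_inv_cancel, φ.apply_symm_apply, star_star])
    (by intro h
        show φ (ρ g⁻¹ (φ.symm (star (star (φ (ρ g (φ.symm h))))))) = h
        rw [star_star, φ.symm_apply_apply, xr1_rho_inv_cancel', φ.apply_symm_apply])
    (xr1_q8_star hγ) (xr1_q8_star hγ')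
    (by intro h
        show star (φ (ρ g (φ.symm (qi * h)))) = star γ * star (φ (ρ g (φ.symm h)))
        rw [hx, hgx, hu, star_mul])
    (by intro h
        show star (φ (ρ g (φ.symm (qj * h)))) = star γ' * star (φ (ρ g (φ.symm h)))
        rw [hy, hgy, hw, star_mul])
  refine ⟨star δ, star α, ?_, ?_, fun w => ?_⟩
  · rw [Quaternion.normSq_star]; exact hδ
  · rw [Quaternion.normSq_star]; exact hα
  · have h1 := hT (φ w)
    have h2 : (xr1Star ∘ₗ (φ : V →ₗ[ZMod 3] H) ∘ₗ (ρ g) ∘ₗ (φ.symm : H →ₗ[ZMod 3] V)) (φ w) =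
        star (φ (ρ g (φ.symm (φ w)))) := rfl
    rw [h2, φ.symm_apply_apply] at h1
    have h3 := congrArg star h1
    rw [star_star, star_mul, star_mul] at h3
    exact h3.trans (mul_assoc _ _ _).symm

end rep

/-- the conjugates of `x` and `y` by `g` are both of left type or both of right type -/
theorem xr1_dich {G : Type u} [Group G] [Finite G] {V : Type v} [AddCommGroup V]
    [Module (ZMod 3) V] [Finite V] {ρ : Representation (ZMod 3) G V} {R : Subgroup G} {b : G}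
    {Q N : Subgroup G} {z x y : G} {φ : V ≃ₗ[ZMod 3] H} (hC : Ctx ρ R b Q N z x y φ)
    (hQ : QFacts ρ φ N) (g : G) :
    (∃ p p' : H, Q8 p ∧ Q8 p' ∧ (∀ w, φ (ρ (g * x * g⁻¹) w) = p * φ w) ∧
        (∀ w, φ (ρ (g * y * g⁻¹) w) = p' * φ w)) ∨
      (∃ γ γ' : H, Q8 γ ∧ Q8 γ' ∧ (∀ w, φ (ρ (g * x * g⁻¹) w) = φ w * γ) ∧
        (∀ w, φ (ρ (g * y * g⁻¹) w) = φ w * γ')) := by
  have hz : ∀ w : V, ρ z w = -w := hC.extra.2.2.1
  have huN : g * x * g⁻¹ ∈ N := hC.Nnormal.conj_mem x hC.xN g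
  have hwN : g * y * g⁻¹ ∈ N := hC.Nnormal.conj_mem y hC.yN g
  have huu : (g * x * g⁻¹) * (g * x * g⁻¹) = z := by
    have h1 : (g * x * g⁻¹) * (g * x * g⁻¹) = g * (x * x) * g⁻¹ := by group
    rw [h1, hC.xx, ← hC.zc g, mul_inv_cancel_right]
  have hww : (g * y * g⁻¹) * (g * y * g⁻¹) = z := by
    have h1 : (g * y * g⁻¹) * (g * y * g⁻¹) = g * (y * y) * g⁻¹ := by group
    rw [h1, hC.yy, ← hC.zc g, mul_inv_cancel_right]
  have hwu : (g * y * g⁻¹) * (g * x * g⁻¹) = z * (g * x * g⁻¹) * (g * y * g⁻¹) := by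
    have h1 : (g * y * g⁻¹) * (g * x * g⁻¹) = g * (y * x) * g⁻¹ := by group
    have h2 : z * (g * x * g⁻¹) * (g * y * g⁻¹) = (z * g) * (x * y) * g⁻¹ := by group
    rw [h1, h2, hC.yx, hC.zc g]
    simp only [mul_assoc]
  have huw : (g * x * g⁻¹) * (g * y * g⁻¹) = z * (g * y * g⁻¹) * (g * x * g⁻¹) :=
    xr1_swap hC.zz hwu
  rcases xr1_typ ρ φ hz hQ huN huu with ⟨p, hp, hu⟩ | ⟨γ, hγ, hu⟩
  · rcases xr1_typ ρ φ hz hQ hwN hww with ⟨p', hp', hw⟩ | ⟨γ', hγ', hw⟩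
    · left; exact ⟨p, p', hp, hp', hu, hw⟩
    · exact (xr1_anti ρ φ hz hwu hp hγ' hu hw).elim
  · rcases xr1_typ ρ φ hz hQ hwN hww with ⟨p', hp', hw⟩ | ⟨γ', hγ', hw⟩
    · exact (xr1_anti ρ φ hz huw hp' hγ hw hu).elim
    · right; exact ⟨γ, γ', hγ, hγ', hu, hw⟩

/-- **[X-R1]** every element of `R` acts as `h ↦ α h γ` with units `α, γ`. -/
theorem pkgXR1 : PkgXR1.{u, v} := by
  intro hNorm hF G _ _ V _ _ _ ρ R b Q N z x y φ hC hB hQ
  have hbU : b ∈ xr1U hF ρ φ := by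
    obtain ⟨β₁, β₂, hLR, h1, h2, -⟩ := hB
    refine (mem_xr1U hF ρ φ b).2 ⟨β₁, β₂, ?_, ?_, hLR⟩
    · rw [hF.cube_norm β₁ h1]; exact one_ne_zero
    · rw [hF.cube_norm β₂ h2]; exact one_ne_zero
  have hzb : Subgroup.zpowers b ≤ xr1U hF ρ φ := (Subgroup.zpowers_le).2 hbU
  have hdich : ∀ g : G, g ∈ xr1U hF ρ φ ∨ XAnti ρ φ g := by
    intro g
    rcases xr1_dich hC hQ g with ⟨p, p', hp, hp', hu, hw⟩ | ⟨γ, γ', hγ, hγ', hu, hw⟩
    · left; exact (mem_xr1U hF ρ φ g).2 (xr1_L hNorm ρ φ hC.mx hC.my hp hp' hu hw)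
    · right; exact xr1_R hNorm ρ φ hC.mx hC.my hγ hγ' hu hw
  have hRU : ⁅R, Subgroup.zpowers b⁆ ≤ xr1U hF ρ φ := by
    rw [Subgroup.commutator_le]
    intro r _ c hc
    rw [commutatorElement_def]
    have hcU := hzb hc
    rcases hdich r with hr | hr
    · exact mul_mem (mul_mem (mul_mem hr hcU) (inv_mem hr)) (inv_mem hcU)
    · rcases hdich r⁻¹ with hr' | hr'
      · have hr2 := inv_mem hr'
        rw [inv_inv] at hr2
        exact mul_mem (mul_mem (mul_mem hr2 hcU) hr') (inv_mem hcU)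
      · exact mul_mem (xr1_anti_mul_anti hF (xr1_anti_mul_u hF hr hcU) hr') (inv_mem hcU)
  rw [hC.setup.comm] at hRU
  intro r hr
  exact (mem_xr1U hF ρ φ r).1 (hRU hr)

end Cfsg.Agent.Lib.Helper64.S4415
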